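import Mathlib
import Cfsg.Agent.Lib.Basic.Frattini
import Cfsg.Agent.Lib.Basic.CoprimeAction2
import Cfsg.Agent.Lib.Transfer.Frobenius
import Cfsg.Agent.Lib.OddLocal.Sup
import Cfsg.Agent.Lib.CNThm.B
import Cfsg.Agent.Lib.PGroups.Parts

/-!
# Groups in which every non-abelian subgroup is self-normalizing: basic facts
-/

set_option autoImplicit false
set_option linter.unusedSectionVars false

namespace Cfsg.Agent.Lib.TwoFusion.SN

open Subgroup

universe u

section Basic

variable {G G' : Type*} [Group G] [Group G']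

/-- Every non-abelian subgroup is self-normalizing. -/
def SNHyp (G : Type*) [Group G] : Prop :=
  ∀ H : Subgroup G, ¬ IsMulCommutative H → normalizer (H : Set G) = H

theorem not_comm_of_ne {H : Subgroup G} {a b : G} (ha : a ∈ H) (hb : b ∈ H) (hab : a * b ≠ b * a) :
    ¬ IsMulCommutative H := by
  intro hc
  apply hab
  have := hc.is_comm.comm ⟨a, ha⟩ ⟨b, hb⟩
  exact congrArg Subtype.val this

theorem SNHyp.mem (h : SNHyp G) {H : Subgroup G} {a b : G} (ha : a ∈ H) (hb : b ∈ H)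
    (hab : a * b ≠ b * a) {x : G} (hx : x ∈ normalizer (H : Set G)) : x ∈ H := by
  rw [h H (not_comm_of_ne ha hb hab)] at hx
  exact hx

theorem SNHyp.comm (h : SNHyp G) {H : Subgroup G} {x : G} (hx : x ∈ normalizer (H : Set G))
    (hxH : x ∉ H) : ∀ a ∈ H, ∀ b ∈ H, a * b = b * a := by
  intro a ha b hb
  by_contra hab
  exact hxH (h.mem ha hb hab hx)

/-- Transport along surjections. -/
theorem SNHyp.of_surjective (h : SNHyp G) (f : G →* G') (hf : Function.Surjective f) : SNHyp G' := by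
  intro X hX
  have hnc : ¬ IsMulCommutative (X.comap f) := by
    intro hc
    apply hX
    refine ⟨⟨fun a b => ?_⟩⟩
    obtain ⟨a', ha'⟩ := hf (a : G')
    obtain ⟨b', hb'⟩ := hf (b : G')
    have h1 := hc.is_comm.comm ⟨a', by rw [mem_comap, ha']; exact a.2⟩ ⟨b', by rw [mem_comap, hb']; exact b.2⟩
    have h2 := congrArg (fun z : X.comap f => f (z : G)) h1
    simp only [Subgroup.coe_mul, map_mul, ha', hb'] at h2
    exact Subtype.ext h2
  apply le_antisymm
  · intro x' hx'
    obtain ⟨x, rfl⟩ := hf x'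
    have hx : x ∈ normalizer ((X.comap f : Subgroup G) : Set G) := by
      rw [mem_normalizer_iff]
      intro g
      rw [mem_comap, mem_comap, map_mul, map_mul, map_inv]
      exact (mem_normalizer_iff.mp hx') (f g)
    rw [h _ hnc] at hx
    exact hx
  · exact le_normalizer

/-- Transport along isomorphisms. -/
theorem SNHyp.of_equiv (h : SNHyp G) (e : G ≃* G') : SNHyp G' :=
  h.of_surjective e.toMonoidHom e.surjective

/-- Passage to quotients. -/
theorem SNHyp.quotient (h : SNHyp G) (N : Subgroup G) [N.Normal] : SNHyp (G ⧸ N) :=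
  h.of_surjective (QuotientGroup.mk' N) (QuotientGroup.mk'_surjective N)

/-- Passage to subgroups. -/
theorem SNHyp.subgroup (h : SNHyp G) (K : Subgroup G) : SNHyp K := by
  intro X hX
  have hnc : ¬ IsMulCommutative (X.map K.subtype) := by
    intro hc
    apply hX
    refine ⟨⟨fun a b => ?_⟩⟩
    have h1 := hc.is_comm.comm ⟨(a : K), ⟨a, a.2, rfl⟩⟩ ⟨(b : K), ⟨b, b.2, rfl⟩⟩
    have h2 := congrArg Subtype.val h1
    apply Subtype.ext
    apply Subtype.ext
    exact h2
  apply le_antisymm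
  · intro x hx
    have hx' : (x : G) ∈ normalizer ((X.map K.subtype : Subgroup G) : Set G) := by
      rw [mem_normalizer_iff]
      intro g
      constructor
      · rintro ⟨a, ha, rfl⟩
        refine ⟨x * a * x⁻¹, (mem_normalizer_iff.mp hx a).mp ha, ?_⟩
        simp
      · rintro ⟨a, ha, hae⟩
        refine ⟨x⁻¹ * a * x, ?_, ?_⟩
        · have := (mem_normalizer_iff.mp hx (x⁻¹ * a * x)).mpr (by
            have : x * (x⁻¹ * a * x) * x⁻¹ = a := by group
            rw [this]; exact ha)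
          exact this
        · have h3 : (a : G) = (x : G) * g * (x : G)⁻¹ := by simpa using hae
          simp only [Subgroup.coe_subtype, Subgroup.coe_mul, Subgroup.coe_inv]
          rw [h3]; group
    rw [h _ hnc] at hx'
    obtain ⟨a, ha, hae⟩ := hx'
    have : a = x := Subtype.ext hae
    rw [← this]; exact ha
  · exact le_normalizer

/-- Membership in a normalizer from the forward inclusion. -/
theorem mem_normalizer_of_forall [Finite G] {H : Subgroup G} {x : G} (h : ∀ a ∈ H, x * a * x⁻¹ ∈ H) :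
    x ∈ normalizer (H : Set G) := by
  have hk : ∀ n : ℕ, ∀ a ∈ H, x ^ n * a * (x ^ n)⁻¹ ∈ H := by
    intro n
    induction n with
    | zero => intro a ha; simpa using ha
    | succ n ih =>
      intro a ha
      have : x ^ (n + 1) * a * (x ^ (n + 1))⁻¹ = x ^ n * (x * a * x⁻¹) * (x ^ n)⁻¹ := by
        rw [pow_succ]; group
      rw [this]
      exact ih _ (h a ha)
  have hinv : x⁻¹ = x ^ (orderOf x - 1) := by
    rw [eq_comm, eq_inv_iff_mul_eq_one, ← pow_succ, Nat.sub_add_cancel (orderOf_pos x), pow_orderOf_eq_one]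
  rw [mem_normalizer_iff]
  intro g
  refine ⟨h g, fun hg => ?_⟩
  have h1 := hk (orderOf x - 1) _ hg
  rw [← hinv, inv_inv] at h1
  have h2 : x⁻¹ * (x * g * x⁻¹) * x = g := by group
  rwa [h2] at h1

theorem mem_normalizer_of_commute [Finite G] {H : Subgroup G} {x : G} (h : ∀ a ∈ H, a * x = x * a) :
    x ∈ normalizer (H : Set G) := by
  apply mem_normalizer_of_forall
  intro a ha
  have : x * a * x⁻¹ = a := by
    rw [← h a ha]; group
  rwa [this]

/-- Elements in a `p`-subgroup normalized by a nontrivial `p'`-element: the subgroup is abelian. -/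
theorem SNHyp.comm_of_isPGroup [Finite G] (h : SNHyp G) {p : ℕ} [Fact p.Prime] {D : Subgroup G}
    (hD : IsPGroup p D) {θ : G} (hθ : θ ∈ normalizer (D : Set G)) (hc : Nat.Coprime (orderOf θ) p)
    (hne : θ ≠ 1) : ∀ a ∈ D, ∀ b ∈ D, a * b = b * a :=
  h.comm hθ (fun hm => hne (Cfsg.Agent.Lib.Transfer.eq_one_of_coprime_of_isPGroup hD hm hc))

theorem pow_conj_eq (y s c : G) (hc : y * s * y⁻¹ = s * c) (hcy : Commute c y) (k : ℕ) :
    y ^ k * s * (y ^ k)⁻¹ = s * c ^ k := by
  induction k with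
  | zero => simp
  | succ k ih =>
    have h1 : y ^ (k + 1) * s * (y ^ (k + 1))⁻¹ = y * (y ^ k * s * (y ^ k)⁻¹) * y⁻¹ := by
      rw [pow_succ']; group
    rw [h1, ih]
    have h2 : Commute (c ^ k) y := hcy.pow_left k
    have h3 : y * (s * c ^ k) * y⁻¹ = (y * s * y⁻¹) * (y * c ^ k * y⁻¹) := by group
    rw [h3, hc, ← h2.eq]
    have h4 : c ^ k * y * y⁻¹ = c ^ k := by group
    rw [h4, pow_succ']
    group

theorem eq_one_of_coprime_dvd {x y : G} {n : ℕ} (h1 : x ^ n = 1) (h2 : Nat.Coprime (orderOf x) n) : x = 1 := by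
  have h3 := orderOf_dvd_of_pow_eq_one h1
  have h4 := Nat.Coprime.eq_one_of_dvd h2 h3
  exact orderOf_eq_one_iff.mp h4

/-- **Fixed points of coprime elements**: a coprime element which does not centralize the abelian
subgroup `T` which it normalizes has no fixed point on `T`. -/
theorem SNHyp.fix_eq_one [Finite G] (h : SNHyp G) {T : Subgroup G}
    (hT : ∀ a ∈ T, ∀ b ∈ T, a * b = b * a) {y : G} (hyT : y ∈ normalizer (T : Set G))
    (hcop : Nat.Coprime (Nat.card T) (orderOf y)) (hy : y ∉ centralizer (T : Set G)) {c : G}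
    (hcT : c ∈ T) (hcy : Commute c y) : c = 1 := by
  have hyN : ∀ s ∈ T, y * s * y⁻¹ ∈ T := fun s hs => (mem_normalizer_iff.mp hyT s).mp hs
  have hyN' : ∀ s ∈ T, y⁻¹ * s * y ∈ T := fun s hs => by
    have := (mem_normalizer_iff.mp hyT (y⁻¹ * s * y)).mpr (by
      have h1 : y * (y⁻¹ * s * y) * y⁻¹ = s := by group
      rw [h1]; exact hs)
    exact this
  have key : ∀ s ∈ T, Commute (s⁻¹ * (y * s * y⁻¹)) y → s⁻¹ * (y * s * y⁻¹) = 1 := by
    intro s hs hc
    have heT : s⁻¹ * (y * s * y⁻¹) ∈ T := T.mul_mem (T.inv_mem hs) (hyN s hs)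
    have h1 : y * s * y⁻¹ = s * (s⁻¹ * (y * s * y⁻¹)) := by group
    have h2 := pow_conj_eq y s _ h1 hc (orderOf y)
    rw [pow_orderOf_eq_one] at h2
    simp only [one_mul, inv_one, mul_one] at h2
    have h3 : (s⁻¹ * (y * s * y⁻¹)) ^ orderOf y = 1 := by
      simpa using h2.symm
    have h4 : orderOf (s⁻¹ * (y * s * y⁻¹)) ∣ Nat.card T := Subgroup.orderOf_dvd_natCard T heT
    exact eq_one_of_coprime_dvd (y := y) h3 (Nat.Coprime.coprime_dvd_left h4 hcop)
  let E : Subgroup G :=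
    { carrier := {e | ∃ s ∈ T, e = s⁻¹ * (y * s * y⁻¹)}
      one_mem' := ⟨1, T.one_mem, by simp⟩
      mul_mem' := by
        rintro _ _ ⟨s, hs, rfl⟩ ⟨r, hr, rfl⟩
        refine ⟨s * r, T.mul_mem hs hr, ?_⟩
        have h1 := hT _ (hyN s hs) _ (T.inv_mem hr)
        have h2 := hT _ (T.inv_mem hs) _ (T.inv_mem hr)
        calc s⁻¹ * (y * s * y⁻¹) * (r⁻¹ * (y * r * y⁻¹))
            = s⁻¹ * ((y * s * y⁻¹) * r⁻¹) * (y * r * y⁻¹) := by group
          _ = (s⁻¹ * r⁻¹) * (y * s * y⁻¹) * (y * r * y⁻¹) := by rw [h1]; group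
          _ = (r⁻¹ * s⁻¹) * (y * s * y⁻¹) * (y * r * y⁻¹) := by rw [h2]
          _ = _ := by group
      inv_mem' := by
        rintro _ ⟨s, hs, rfl⟩
        refine ⟨s⁻¹, T.inv_mem hs, ?_⟩
        have h1 := hT _ (hyN s hs) _ (T.inv_mem hs)
        have h2 : (s⁻¹ * (y * s * y⁻¹))⁻¹ = (y * s * y⁻¹)⁻¹ * s := by group
        have h3 : s⁻¹⁻¹ * (y * s⁻¹ * y⁻¹) = s * (y * s * y⁻¹)⁻¹ := by group
        rw [h2, h3]
        have h4 := hT _ (T.inv_mem (hyN s hs)) _ hs
        exact h4 }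
  have hET : E ≤ T := by
    rintro _ ⟨s, hs, rfl⟩
    exact T.mul_mem (T.inv_mem hs) (hyN s hs)
  have hyE : y ∈ normalizer (E : Set G) := by
    apply mem_normalizer_of_forall
    rintro _ ⟨s, hs, rfl⟩
    refine ⟨y * s * y⁻¹, hyN s hs, ?_⟩
    group
  have hzE : zpowers y ≤ normalizer (E : Set G) := zpowers_le.mpr hyE
  obtain ⟨s₀, hs₀, hs₀c⟩ : ∃ s ∈ T, ¬ Commute (s⁻¹ * (y * s * y⁻¹)) y := by
    by_contra hcon
    push Not at hcon
    apply hy
    rw [mem_centralizer_iff]
    intro s hs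
    have h1 := key s hs (hcon s hs)
    have h2 : y * s * y⁻¹ = s := by
      rw [← mul_right_inj s⁻¹, h1]; group
    exact (mul_inv_eq_iff_eq_mul.mp h2).symm
  have hE0 : s₀⁻¹ * (y * s₀ * y⁻¹) ∈ E := ⟨s₀, hs₀, rfl⟩
  have hW : (s₀⁻¹ * (y * s₀ * y⁻¹)) * y ≠ y * (s₀⁻¹ * (y * s₀ * y⁻¹)) := hs₀c
  have hcW : c ∈ E ⊔ zpowers y := by
    refine h.mem (mem_sup_left hE0) (mem_sup_right (mem_zpowers y)) hW ?_
    apply mem_normalizer_of_commute
    intro a ha
    have hle : E ⊔ zpowers y ≤ centralizer ({c} : Set G) := by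
      refine sup_le ?_ ?_
      · intro e he
        rw [mem_centralizer_singleton_iff]
        exact hT _ (hET he) _ hcT
      · rw [zpowers_le, mem_centralizer_singleton_iff]
        exact hcy.eq.symm
    have := hle ha
    rw [mem_centralizer_singleton_iff] at this
    exact this
  obtain ⟨e, he, b, hb, hcb⟩ := Cfsg.Agent.Lib.OddLocal.mem_sup_of_le_normalizer hzE hcW
  have hbT : b ∈ T := by
    have : b = e⁻¹ * c := by rw [← hcb]; group
    rw [this]
    exact T.mul_mem (T.inv_mem (hET he)) hcT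
  have hb1 : b = 1 := by
    have h1 : orderOf b ∣ Nat.card T := Subgroup.orderOf_dvd_natCard T hbT
    have h2 : orderOf b ∣ orderOf y := by
      have := Subgroup.orderOf_dvd_natCard _ hb
      rwa [Nat.card_zpowers] at this
    exact orderOf_eq_one_iff.mp (Nat.Coprime.eq_one_of_dvd (Nat.Coprime.coprime_dvd_left h1 (Nat.Coprime.coprime_dvd_right h2 hcop)) dvd_rfl)
  rw [hb1, mul_one] at hcb
  obtain ⟨s, hs, hse⟩ := he
  rw [← hcb, hse] at hcy
  rw [← hcb, hse]
  exact key s hs hcy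

end Basic

end Cfsg.Agent.Lib.TwoFusion.SN
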