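import Mathlib
import Cfsg.Agent.S0035
import Cfsg.Agent.S0034
import Cfsg.Agent.Lib.Basic.Glauberman
import Cfsg.Agent.Lib.Basic.Conj
import Cfsg.Agent.Lib.Components.Signal

/-!
# A solvable subgroup central in every solvable overgroup is central
-/

set_option autoImplicit false
set_option linter.unusedSectionVars false

namespace Cfsg.Agent.Lib.TwoFusion.SolvCentral

open Subgroup Cfsg Cfsg.Agent.Lib.Basic

open scoped Pointwise

universe u

/-- A solvable subgroup of a Frobenius complement lies in a solvable subgroup not contained in the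
complement. -/
theorem exists_invariant_solvable {Q : Type*} [Group Q] [Finite Q] {H : Subgroup Q}
    (hH : IsFrobeniusComplement H) {A : Subgroup Q} (hAH : A ≤ H) (hAab : Group.IsSolvable A) :
    ∃ T : Subgroup Q, A ≤ T ∧ Group.IsSolvable T ∧ ∃ y ∈ T, y ∉ H := by
  classical
  obtain ⟨N, hNset, hNn, hc⟩ := Cfsg.Agent.S0035.result H hH
  obtain ⟨-, hmod⟩ := Cfsg.Agent.S0034.result H hH
  have hNne : N ≠ ⊥ := by
    rintro rfl
    have hcard := hc.card_mul_card
    have h1 : Nat.card H = Nat.card Q := by
      simpa using hcard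
    apply hH.2.1
    exact Subgroup.eq_top_of_card_eq _ h1
  have hcop : (Nat.card A).Coprime (Nat.card N) := by
    have h1 : Nat.card A ∣ Nat.card H := Subgroup.card_dvd_of_le hAH
    have h2 : Nat.card N = H.index := by
      have h3 := hc.card_mul_card
      have h4 := H.index_mul_card
      have h5 : 0 < Nat.card H := Nat.card_pos
      exact Nat.eq_of_mul_eq_mul_right h5 (h3.trans h4.symm)
    rw [h2]
    refine Nat.Coprime.coprime_dvd_left h1 ?_
    have h7 : Nat.gcd H.index (Nat.card H) = Nat.gcd 1 (Nat.card H) := Nat.ModEq.gcd_eq hmod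
    rw [Nat.coprime_comm]
    show Nat.gcd H.index (Nat.card H) = 1
    rw [h7]
    simp
  obtain ⟨r, hr, hrd⟩ := Nat.exists_prime_and_dvd (n := Nat.card N) (by
    intro h1
    apply hNne
    exact (Subgroup.card_eq_one).mp h1)
  haveI : Fact r.Prime := ⟨hr⟩
  have hAN : A ≤ normalizer (N : Set Q) := by
    intro a _
    rw [mem_normalizer_iff]
    intro n
    exact ⟨fun h => hNn.conj_mem n h a, fun h => by
      have := hNn.conj_mem _ h a⁻¹
      simpa [mul_assoc] using this⟩
  obtain ⟨P, hP⟩ := exists_invariant_sylow hAN hcop (Or.inl hAab) r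
  set X : Subgroup Q := (P : Subgroup N).map N.subtype with hX
  have hXsolv : Group.IsSolvable X := by
    have hpg : IsPGroup r X := by
      have h1 : IsPGroup r (P : Subgroup N) := P.isPGroup'
      exact h1.map N.subtype
    haveI : Finite X := inferInstance
    haveI := hpg.isNilpotent
    infer_instance
  have hXne : ∃ y ∈ X, y ≠ 1 := by
    have h1 : (P : Subgroup N) ≠ ⊥ := P.ne_bot_of_dvd_card hrd
    obtain ⟨⟨y, hy⟩, hy1⟩ := (Subgroup.ne_bot_iff_exists_ne_one).mp h1
    refine ⟨(y : Q), Subgroup.mem_map.mpr ⟨y, hy, rfl⟩, fun h => hy1 ?_⟩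
    exact Subtype.ext (Subtype.ext h)
  obtain ⟨y, hyX, hy1⟩ := hXne
  have hyN : y ∈ N := by
    obtain ⟨z, -, rfl⟩ := Subgroup.mem_map.mp hyX
    exact z.2
  refine ⟨X ⊔ A, le_sup_right, ?_, y, Subgroup.mem_sup_left hyX, ?_⟩
  · exact Cfsg.Agent.Lib.Components.isSolvable_sup_of_le_normalizer hP hXsolv hAab
  · intro hyH
    have := Subgroup.disjoint_def.mp hc.disjoint hyN hyH
    exact hy1 this

/-- Main theorem. -/
theorem main : ∀ (n : ℕ) (G : Type u) [Group G] [Finite G], Nat.card G = n →
    ∀ A : Subgroup G, Group.IsSolvable A →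
    (∀ S : Subgroup G, A ≤ S → Group.IsSolvable S → ∀ a ∈ A, ∀ s ∈ S, a * s = s * a) →
    A ≤ center G := by
  intro n
  induction n using Nat.strong_induction_on with
  | _ n IH =>
  intro G _ _ hn A hA hc
  classical
  by_contra hne
  -- proper subgroups containing `A` centralize it
  have hprop : ∀ H : Subgroup G, A ≤ H → H ≠ ⊤ → ∀ a ∈ A, ∀ h ∈ H, a * h = h * a := by
    intro H hAH hH a ha h hh
    have hlt : Nat.card H < n := by
      rw [← hn]
      exact lt_of_le_of_ne (Subgroup.card_le_card_group H) (fun h => hH (Subgroup.eq_top_of_card_eq H h))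
    have key := IH _ hlt H rfl (A.subgroupOf H) ?_ ?_ (Subgroup.mem_subgroupOf.mpr (show ((⟨a, hAH ha⟩ : H) : G) ∈ A from ha))
    · have := (Subgroup.mem_center_iff.mp key) ⟨h, hh⟩
      have h2 := congrArg Subtype.val this
      exact h2.symm
    · exact Group.isSolvable_of_isSolvable_injective (f := (Subgroup.subgroupOfEquivOfLe hAH : A.subgroupOf H ≃* A).toMonoidHom) (MulEquiv.injective _)
    · intro S hAS hS b hb s hs
      have hS' : Group.IsSolvable (S.map H.subtype) := by
        haveI := hS
        exact Group.isSolvable_of_surjective (f := (S.equivMapOfInjective H.subtype H.subtype_injective).toMonoidHom) (MulEquiv.surjective _)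
      have hle : A ≤ S.map H.subtype := by
        intro x hx
        exact Subgroup.mem_map.mpr ⟨⟨x, hAH hx⟩, hAS (Subgroup.mem_subgroupOf.mpr hx), rfl⟩
      have h3 := hc _ hle hS' (b : G) (Subgroup.mem_subgroupOf.mp hb) (s : G) (Subgroup.mem_map.mpr ⟨s, hs, rfl⟩)
      exact Subtype.ext h3
  have hcomm : ∀ a ∈ A, ∀ b ∈ A, a * b = b * a := fun a ha b hb => hc A le_rfl hA a ha b hb
  set C := centralizer (A : Set G) with hC
  have hmemC : ∀ x, x ∈ C ↔ ∀ a ∈ A, a * x = x * a := by
    intro x
    rw [hC, mem_centralizer_iff]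
    rfl
  have hAC : A ≤ C := fun a ha => (hmemC a).mpr (fun b hb => hcomm b hb a ha)
  have hCtop : C ≠ ⊤ := by
    intro h
    apply hne
    intro a ha
    rw [mem_center_iff]
    intro g
    have hg : g ∈ C := h ▸ mem_top g
    exact ((hmemC g).mp hg a ha).symm
  have hmax : ∀ H : Subgroup G, A ≤ H → H ≠ ⊤ → H ≤ C := fun H hAH hH h hh =>
    (hmemC h).mpr (fun a ha => hprop H hAH hH a ha h hh)
  -- `C` is not normal
  have hnn : ¬ C.Normal := by
    intro hCn
    let B : Subgroup G := C ⊓ centralizer (C : Set G)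
    have hmemB : ∀ x, x ∈ B ↔ x ∈ C ∧ ∀ c ∈ C, c * x = x * c := by
      intro x
      rw [mem_inf, mem_centralizer_iff]
      rfl
    have hBn : B.Normal := by
      refine ⟨fun x hx g => ?_⟩
      rw [hmemB] at hx ⊢
      refine ⟨hCn.conj_mem x hx.1 g, ?_⟩
      intro c hc'
      have h1 : g⁻¹ * c * g ∈ C := by
        have := hCn.conj_mem c hc' g⁻¹
        simpa using this
      have h2 := hx.2 _ h1
      calc c * (g * x * g⁻¹) = g * ((g⁻¹ * c * g) * x) * g⁻¹ := by group
        _ = g * (x * (g⁻¹ * c * g)) * g⁻¹ := by rw [h2]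
        _ = g * x * g⁻¹ * c := by group
    have hAB : A ≤ B := fun a ha => (hmemB a).mpr ⟨hAC ha, fun c hc' => ((hmemC c).mp hc' a ha).symm⟩
    have hBsolv : Group.IsSolvable B := by
      apply Group.isSolvable_of_comm
      intro x y
      apply Subtype.ext
      exact ((hmemB _).mp y.2).2 x ((hmemB _).mp x.2).1
    apply hne
    intro a ha
    rw [mem_center_iff]
    intro g
    have hS : Group.IsSolvable ↥(B ⊔ zpowers g) := by
      apply Cfsg.Agent.Lib.Components.isSolvable_sup_of_le_normalizer
      · intro z _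
        rw [mem_normalizer_iff]
        intro n
        exact ⟨fun h => hBn.conj_mem n h z, fun h => by
          have := hBn.conj_mem _ h z⁻¹
          simpa [mul_assoc] using this⟩
      · exact hBsolv
      · infer_instance
    exact (hc _ (hAB.trans le_sup_left) hS a ha g (mem_sup_right (mem_zpowers g))).symm
  have hNC : ∀ g, g ∈ normalizer (C : Set G) → g ∈ C := by
    intro g hg
    have hne' : normalizer (C : Set G) ≠ ⊤ := by
      intro h
      apply hnn
      exact normalizer_eq_top_iff.mp h
    exact hmax _ (hAC.trans le_normalizer) hne' hg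
  -- TI modulo the centre
  have hTI : ∀ g, g ∉ C → ∀ x, x ∈ C → g⁻¹ * x * g ∈ C → x ∈ center G := by
    intro g hg x hx hx'
    have hT : A ⊔ (MulAut.conj g • A) = ⊤ := by
      by_contra hT
      have h1 : A ⊔ (MulAut.conj g • A) ≤ C := hmax _ le_sup_left hT
      have h2 : MulAut.conj g • A ≤ C := le_sup_right.trans h1
      have h3 : A ≤ MulAut.conj g • C := by
        intro a ha
        rw [mem_conj_smul, hmemC]
        intro b hb
        have h4 : g * b * g⁻¹ ∈ MulAut.conj g • A := conj_mem_conj_smul.mpr hb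
        have h5 := (hmemC _).mp (h2 h4) a ha
        calc b * (g⁻¹ * a * g) = g⁻¹ * ((g * b * g⁻¹) * a) * g := by group
          _ = g⁻¹ * (a * (g * b * g⁻¹)) * g := by rw [h5]
          _ = g⁻¹ * a * g * b := by group
      have h6 : MulAut.conj g • C ≠ ⊤ := by
        intro h
        apply hCtop
        rw [eq_top_iff]
        intro y _
        have h7 : g * y * g⁻¹ ∈ MulAut.conj g • C := h ▸ mem_top _
        exact conj_mem_conj_smul.mp h7
      have h8 := hmax _ h3 h6
      have h9 : MulAut.conj g • C = C := by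
        apply Subgroup.eq_of_le_of_card_ge h8
        exact le_of_eq (Nat.card_congr (conjSmulEquiv g C).toEquiv)
      apply hg
      apply hNC
      rw [mem_normalizer_iff]
      intro n
      have h10 : g * n * g⁻¹ ∈ C ↔ n ∈ C := by
        conv_lhs => rw [← h9]
        exact conj_mem_conj_smul
      exact h10.symm
    rw [mem_center_iff]
    intro y
    have hy : y ∈ A ⊔ (MulAut.conj g • A) := hT ▸ mem_top y
    have hle : A ⊔ (MulAut.conj g • A) ≤ centralizer ({x} : Set G) := by
      apply sup_le
      · intro a ha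
        rw [mem_centralizer_singleton_iff]
        exact (hmemC x).mp hx a ha
      · intro a ha
        rw [mem_centralizer_singleton_iff]
        have h1 := mem_conj_smul.mp ha
        have h2 := (hmemC _).mp hx' _ h1
        have h3 : a = g * (g⁻¹ * a * g) * g⁻¹ := by group
        have h4 : x = g * (g⁻¹ * x * g) * g⁻¹ := by group
        calc a * x = g * ((g⁻¹ * a * g) * (g⁻¹ * x * g)) * g⁻¹ := by group
          _ = g * ((g⁻¹ * x * g) * (g⁻¹ * a * g)) * g⁻¹ := by rw [h2]
          _ = x * a := by group
    exact mem_centralizer_singleton_iff.mp (hle hy)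
  -- the quotient by the centre
  let π : G →* G ⧸ center G := QuotientGroup.mk' (center G)
  have hπ1 : ∀ g, π g = 1 ↔ g ∈ center G := fun g => QuotientGroup.eq_one_iff g
  have hZC : center G ≤ C := fun z hz => (hmemC z).mpr (fun a _ => (mem_center_iff.mp hz a))
  let Hb : Subgroup (G ⧸ center G) := C.map π
  have hmemH : ∀ g, π g ∈ Hb ↔ g ∈ C := by
    intro g
    constructor
    · rintro ⟨c, hc', he⟩
      have h1 : π (c⁻¹ * g) = 1 := by
        rw [map_mul, map_inv, ← he, inv_mul_cancel]
      have h2 := hZC ((hπ1 _).mp h1)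
      have h3 : g = c * (c⁻¹ * g) := by group
      rw [h3]
      exact mul_mem hc' h2
    · intro hg
      exact ⟨g, hg, rfl⟩
  have hF : IsFrobeniusComplement Hb := by
    refine ⟨?_, ?_, ?_⟩
    · intro h
      apply hne
      intro a ha
      have h1 : π a ∈ Hb := (hmemH a).mpr (hAC ha)
      rw [h, mem_bot] at h1
      exact (hπ1 a).mp h1
    · intro h
      apply hCtop
      rw [eq_top_iff]
      intro g _
      exact (hmemH g).mp (h ▸ mem_top _)
    · intro q hq
      obtain ⟨g, rfl⟩ := QuotientGroup.mk'_surjective _ q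
      have hg : g ∉ C := fun h => hq ((hmemH g).mpr h)
      rw [eq_bot_iff]
      intro y hy
      obtain ⟨x, rfl⟩ := QuotientGroup.mk'_surjective _ y
      rw [mem_inf] at hy
      have h1 : x ∈ C := (hmemH x).mp hy.1
      have h2 := mem_conj_smul.mp hy.2
      have h3 : g⁻¹ * x * g ∈ C := (hmemH _).mp (by
        rw [map_mul, map_mul, map_inv]
        exact h2)
      have h4 := hTI g hg x h1 h3
      exact mem_bot.mpr ((hπ1 x).mpr h4)
  have hAbar : A.map π ≤ Hb := Subgroup.map_mono hAC
  have hAsolv : Group.IsSolvable (A.map π) := by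
    haveI := hA
    exact Group.isSolvable_of_surjective (f := π.subgroupMap A) (π.subgroupMap_surjective A)
  obtain ⟨T, hAT, hTs, y, hyT, hyH⟩ := exists_invariant_solvable hF hAbar hAsolv
  obtain ⟨w, rfl⟩ := QuotientGroup.mk'_surjective _ y
  let S : Subgroup G := T.comap π
  have hZS : center G ≤ S := by
    intro z hz
    show π z ∈ T
    rw [(hπ1 z).mpr hz]
    exact one_mem _
  have hSs : Group.IsSolvable S := by
    haveI := hTs
    haveI : Group.IsSolvable (center G) := by
      apply Group.isSolvable_of_comm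
      intro a b
      apply Subtype.ext
      exact (mem_center_iff.mp a.2 b).symm
    let f : center G →* S := inclusion hZS
    let k : S →* T := (π.comp S.subtype).codRestrict T (fun s => s.2)
    refine Group.isSolvable_of_ker_le_range f k ?_
    rintro ⟨s, hs⟩ hk
    have h1 : π s = 1 := by
      have := congrArg Subtype.val (MonoidHom.mem_ker.mp hk)
      exact this
    exact ⟨⟨s, (hπ1 s).mp h1⟩, rfl⟩
  have hAS : A ≤ S := fun a ha => hAT (mem_map_of_mem π ha)
  apply hyH
  apply (hmemH w).mpr
  rw [hmemC]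
  intro a ha
  exact hc S hAS hSs a ha w hyT

end Cfsg.Agent.Lib.TwoFusion.SolvCentral
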